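import Mathlib

/-!
# Numbers for S5719, cell G2, `q` odd (helper747)
-/

set_option autoImplicit false

namespace Cfsg.Agent.H747.IFG

theorem p_small (n : ℕ) : 32 * ((n + 5) ^ 2 + (n + 5) + 1) ≤ (n + 5) * (n + 4) ^ 5 := by
  have h : (n + 5) * (n + 4) ^ 5 = 32 * ((n + 5) ^ 2 + (n + 5) + 1) +
      (4128 + 7072*n + 4448*n^2 + 1440*n^3 + 260*n^4 + 25*n^5 + 1*n^6) := by ring
  rw [h]; exact Nat.le_add_right _ _

theorem p_k (n : ℕ) : 1024 * ((n + 9) ^ 3 * ((n + 9) ^ 2 + (n + 9) + 1) ^ 2) ≤ (n + 10) ^ 10 := by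
  have h : (n + 10) ^ 10 = 1024 * ((n + 9) ^ 3 * ((n + 9) ^ 2 + (n + 9) + 1) ^ 2) +
      (3818266624 + 5358039040*n + 3005238528*n^2 + 932430848*n^3 + 181244032*n^4 + 23344512*n^5 +
        2033440*n^6 + 118976*n^7 + 4500*n^8 + 100*n^9 + 1*n^10) := by ring
  rw [h]; exact Nat.le_add_right _ _

theorem p_24 (n : ℕ) : 24 ^ 5 * ((n + 7) ^ 2 + (n + 7) + 1) ≤ (n + 7) * ((n + 6) * (n + 8)) ^ 5 := by
  have h : (n + 7) * ((n + 6) * (n + 8)) ^ 5 = 24 ^ 5 * ((n + 7) ^ 2 + (n + 7) + 1) +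
      (1329758208 + 2736488448*n + 2066743296*n^2 + 902615040*n^3 + 261300480*n^4 + 52851488*n^5 +
        7621264*n^6 + 783520*n^7 + 56280*n^8 + 2690*n^9 + 77*n^10 + 1*n^11) := by ring
  rw [h]; exact Nat.le_add_right _ _

theorem p_48 (n : ℕ) : 48 ^ 5 * ((n + 9) ^ 2 + (n + 9) + 1) ≤ (n + 9) * ((n + 8) * (n + 10)) ^ 5 := by
  have h : (n + 9) * ((n + 8) * (n + 10)) ^ 5 = 48 ^ 5 * ((n + 9) ^ 2 + (n + 9) + 1) +
      (6304038912 + 31613124608*n + 20204716032*n^2 + 6881792000*n^3 + 1541433600*n^4 + 241409312*n^5 +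
        26975088*n^6 + 2150560*n^7 + 119880*n^8 + 4450*n^9 + 99*n^10 + 1*n^11) := by ring
  rw [h]; exact Nat.le_add_right _ _

theorem p_120 (n : ℕ) : 120 ^ 5 * ((n + 15) ^ 2 + (n + 15) + 1) ≤ (n + 15) * ((n + 14) * (n + 16)) ^ 5 := by
  have h : (n + 15) * ((n + 14) * (n + 16)) ^ 5 = 120 ^ 5 * ((n + 15) ^ 2 + (n + 15) + 1) +
      (2462388879360 + 5457239834624*n + 2058906009600*n^2 + 418110586880*n^3 + 55906368000*n^4 +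
        5230622240*n^5 + 349414800*n^6 + 16665760*n^7 + 556200*n^8 + 12370*n^9 + 165*n^10 + 1*n^11) := by ring
  rw [h]; exact Nat.le_add_right _ _

theorem p_B (n : ℕ) : (n + 5) ^ 2 * ((n + 5) ^ 4 + (n + 5) ^ 2 + 1) ≤ (n + 4) * (n + 6) ^ 5 := by
  have h : (n + 4) * (n + 6) ^ 5 = (n + 5) ^ 2 * ((n + 5) ^ 4 + (n + 5) ^ 2 + 1) +
      (14829 + 14436*n + 5594*n^2 + 1080*n^3 + 104*n^4 + 4*n^5) := by ring
  rw [h]; exact Nat.le_add_right _ _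

theorem qq (m : ℕ) : (m + 1) ^ 2 - 1 = m * (m + 2) := by
  have : (m + 1) ^ 2 = m * (m + 2) + 1 := by ring
  rw [this]; rfl

/-- `j^5 < q^4 (q^2 + q + 1)` -/
theorem j5 {m j i : ℕ} (hH : j ^ 5 * i < (m + 1) ^ 4 * ((m + 1) ^ 4 + (m + 1) ^ 2 + 1)) (hi : 1 + (m + 1) * m ≤ i) :
    j ^ 5 < (m + 1) ^ 4 * ((m + 1) ^ 2 + (m + 1) + 1) := by
  have h1 : j ^ 5 * (1 + (m + 1) * m) < (m + 1) ^ 4 * ((m + 1) ^ 2 + (m + 1) + 1) * (1 + (m + 1) * m) := by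
    calc j ^ 5 * (1 + (m + 1) * m) ≤ j ^ 5 * i := Nat.mul_le_mul_left _ hi
      _ < _ := hH
      _ = _ := by ring
  exact lt_of_mul_lt_mul_right h1 (Nat.zero_le _)

/-- the Borel case -/
theorem num_B {m j i x y : ℕ} (h5 : 4 ≤ m) (hH : j ^ 5 * i < (m + 1) ^ 4 * ((m + 1) ^ 4 + (m + 1) ^ 2 + 1))
    (hi : (m + 1) * m * x ≤ i) (hj : (m + 1) * (m * (m + 2)) ≤ j * y) (hy : y ≤ x * m) (hx : x ≤ m + 1) : False := by
  obtain ⟨n, rfl⟩ : ∃ n, m = n + 4 := ⟨m - 4, by omega⟩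
  have h1 : (n + 5) * (n + 6) ≤ j * x := by
    have h2 : (n + 4) * ((n + 5) * (n + 6)) ≤ (n + 4) * (j * x) := by
      calc (n + 4) * ((n + 5) * (n + 6)) = (n + 4 + 1) * ((n + 4) * (n + 4 + 2)) := by ring
        _ ≤ j * y := hj
        _ ≤ j * (x * (n + 4)) := Nat.mul_le_mul_left _ hy
        _ = _ := by ring
    exact Nat.le_of_mul_le_mul_left h2 (by omega)
  have h3 : (n + 5) * (n + 6) ^ 5 ≤ j ^ 5 * x := by
    have h4 : (n + 5) ^ 4 * ((n + 5) * (n + 6) ^ 5) ≤ (n + 5) ^ 4 * (j ^ 5 * x) := by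
      calc (n + 5) ^ 4 * ((n + 5) * (n + 6) ^ 5) = ((n + 5) * (n + 6)) ^ 5 := by ring
        _ ≤ (j * x) ^ 5 := Nat.pow_le_pow_left h1 5
        _ = x ^ 4 * (j ^ 5 * x) := by ring
        _ ≤ (n + 5) ^ 4 * (j ^ 5 * x) := Nat.mul_le_mul_right _ (Nat.pow_le_pow_left hx 4)
    exact Nat.le_of_mul_le_mul_left h4 (by positivity)
  have h5 : (n + 5) ^ 4 * ((n + 5) ^ 4 + (n + 5) ^ 2 + 1) ≤ j ^ 5 * i := by
    calc (n + 5) ^ 4 * ((n + 5) ^ 4 + (n + 5) ^ 2 + 1)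
        = (n + 5) ^ 2 * ((n + 5) ^ 2 * ((n + 5) ^ 4 + (n + 5) ^ 2 + 1)) := by ring
      _ ≤ (n + 5) ^ 2 * ((n + 4) * (n + 6) ^ 5) := Nat.mul_le_mul_left _ (p_B n)
      _ = (n + 5) * (n + 4) * ((n + 5) * (n + 6) ^ 5) := by ring
      _ ≤ (n + 5) * (n + 4) * (j ^ 5 * x) := Nat.mul_le_mul_left _ h3
      _ = j ^ 5 * ((n + 4 + 1) * (n + 4) * x) := by ring
      _ ≤ j ^ 5 * i := Nat.mul_le_mul_left _ hi
  exact absurd hH (not_lt.2 h5)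

theorem num_y {m j y Y : ℕ} (hj5 : j ^ 5 < (m + 1) ^ 4 * ((m + 1) ^ 2 + (m + 1) + 1))
    (hj : (m + 1) * (m * (m + 2)) ≤ j * y) (hy : y ≤ Y) (hY : 0 < Y)
    (hp : Y ^ 5 * ((m + 1) ^ 2 + (m + 1) + 1) ≤ (m + 1) * (m * (m + 2)) ^ 5) : False := by
  have h1 : ((m + 1) * (m * (m + 2))) ^ 5 ≤ j ^ 5 * Y ^ 5 := by
    rw [← mul_pow]
    exact Nat.pow_le_pow_left (hj.trans (Nat.mul_le_mul_left _ hy)) 5
  have h2 : ((m + 1) * (m * (m + 2))) ^ 5 < (m + 1) ^ 4 * ((m + 1) ^ 2 + (m + 1) + 1) * Y ^ 5 :=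
    lt_of_le_of_lt h1 (Nat.mul_lt_mul_of_pos_right hj5 (pow_pos hY 5))
  have h3 : (m + 1) ^ 4 * (Y ^ 5 * ((m + 1) ^ 2 + (m + 1) + 1)) ≤ (m + 1) ^ 4 * ((m + 1) * (m * (m + 2)) ^ 5) :=
    Nat.mul_le_mul_left _ hp
  have h4 : (m + 1) ^ 4 * ((m + 1) * (m * (m + 2)) ^ 5) = ((m + 1) * (m * (m + 2))) ^ 5 := by ring
  have h5 : (m + 1) ^ 4 * (Y ^ 5 * ((m + 1) ^ 2 + (m + 1) + 1)) =
    (m + 1) ^ 4 * ((m + 1) ^ 2 + (m + 1) + 1) * Y ^ 5 := by ring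
  rw [h4, h5] at h3
  exact absurd h2 (not_lt.2 h3)

theorem num_small {m j y : ℕ} (h4 : 4 ≤ m) (hj5 : j ^ 5 < (m + 1) ^ 4 * ((m + 1) ^ 2 + (m + 1) + 1))
    (hj : (m + 1) * (m * (m + 2)) ≤ j * y) (hy : y ≤ 2 * (m + 2)) : False := by
  obtain ⟨n, rfl⟩ : ∃ n, m = n + 4 := ⟨m - 4, by omega⟩
  have h1 : (n + 5) * (n + 4) ≤ 2 * j := by
    have h2 : (n + 6) * ((n + 5) * (n + 4)) ≤ (n + 6) * (2 * j) := by
      calc (n + 6) * ((n + 5) * (n + 4)) = (n + 4 + 1) * ((n + 4) * (n + 4 + 2)) := by ring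
        _ ≤ j * y := hj
        _ ≤ j * (2 * (n + 4 + 2)) := Nat.mul_le_mul_left _ hy
        _ = _ := by ring
    exact Nat.le_of_mul_le_mul_left h2 (by omega)
  have h3 : ((n + 5) * (n + 4)) ^ 5 ≤ 32 * j ^ 5 := by
    calc ((n + 5) * (n + 4)) ^ 5 ≤ (2 * j) ^ 5 := Nat.pow_le_pow_left h1 5
      _ = 32 * j ^ 5 := by ring
  have h5 : (n + 5) ^ 4 * (32 * ((n + 5) ^ 2 + (n + 5) + 1)) ≤ (n + 5) ^ 4 * ((n + 5) * (n + 4) ^ 5) :=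
    Nat.mul_le_mul_left _ (p_small n)
  have h6 : (n + 5) ^ 4 * ((n + 5) * (n + 4) ^ 5) = ((n + 5) * (n + 4)) ^ 5 := by ring
  have h7 : (n + 5) ^ 4 * (32 * ((n + 5) ^ 2 + (n + 5) + 1)) =
    32 * ((n + 4 + 1) ^ 4 * ((n + 4 + 1) ^ 2 + (n + 4 + 1) + 1)) := by ring
  rw [h6, h7] at h5
  omega

theorem num_k {m j y k : ℕ} (h8 : 8 ≤ m) (hj5 : j ^ 5 < (m + 1) ^ 4 * ((m + 1) ^ 2 + (m + 1) + 1))
    (hj : (m + 1) * (m * (m + 2)) ≤ j * y) (hk : k ^ 2 ≤ m + 1) (hy : y ≤ 2 * (k * (k ^ 2 - 1))) : False := by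
  obtain ⟨n, rfl⟩ : ∃ n, m = n + 8 := ⟨m - 8, by omega⟩
  have hy' : y ≤ 2 * (k * (n + 8)) := hy.trans (Nat.mul_le_mul_left _ (Nat.mul_le_mul_left _ (by omega)))
  have h1 : (n + 9) * (n + 10) ≤ 2 * (j * k) := by
    have h2 : (n + 8) * ((n + 9) * (n + 10)) ≤ (n + 8) * (2 * (j * k)) := by
      calc (n + 8) * ((n + 9) * (n + 10)) = (n + 8 + 1) * ((n + 8) * (n + 8 + 2)) := by ring
        _ ≤ j * y := hj
        _ ≤ j * (2 * (k * (n + 8))) := Nat.mul_le_mul_left _ hy'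
        _ = _ := by ring
    exact Nat.le_of_mul_le_mul_left h2 (by omega)
  have h3 : (n + 9) * (n + 10) ^ 2 ≤ 4 * j ^ 2 := by
    have h4 : (n + 9) * ((n + 9) * (n + 10) ^ 2) ≤ (n + 9) * (4 * j ^ 2) := by
      calc (n + 9) * ((n + 9) * (n + 10) ^ 2) = ((n + 9) * (n + 10)) ^ 2 := by ring
        _ ≤ (2 * (j * k)) ^ 2 := Nat.pow_le_pow_left h1 2
        _ = k ^ 2 * (4 * j ^ 2) := by ring
        _ ≤ (n + 9) * (4 * j ^ 2) := Nat.mul_le_mul_right _ hk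
    exact Nat.le_of_mul_le_mul_left h4 (by omega)
  have h5 : ((n + 9) * (n + 10) ^ 2) ^ 5 ≤ 1024 * (j ^ 5) ^ 2 := by
    calc ((n + 9) * (n + 10) ^ 2) ^ 5 ≤ (4 * j ^ 2) ^ 5 := Nat.pow_le_pow_left h3 5
      _ = _ := by ring
  have h6 : (j ^ 5) ^ 2 < ((n + 9) ^ 4 * ((n + 9) ^ 2 + (n + 9) + 1)) ^ 2 := Nat.pow_lt_pow_left hj5 (by norm_num)
  have h7 : (n + 9) ^ 5 * (1024 * ((n + 9) ^ 3 * ((n + 9) ^ 2 + (n + 9) + 1) ^ 2)) ≤ (n + 9) ^ 5 * (n + 10) ^ 10 :=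
    Nat.mul_le_mul_left _ (p_k n)
  have h8 : (n + 9) ^ 5 * (n + 10) ^ 10 = ((n + 9) * (n + 10) ^ 2) ^ 5 := by ring
  have h9 : (n + 9) ^ 5 * (1024 * ((n + 9) ^ 3 * ((n + 9) ^ 2 + (n + 9) + 1) ^ 2)) =
    1024 * ((n + 9) ^ 4 * ((n + 9) ^ 2 + (n + 9) + 1)) ^ 2 := by ring
  rw [h8, h9] at h7
  omega

theorem j_lt {j b N : ℕ} (h : j ^ 5 < N) (hN : N ≤ b ^ 5) : j < b := by
  by_contra hcon
  have := Nat.pow_le_pow_left (not_lt.1 hcon) 5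
  omega

/-- **The numbers.** -/
theorem num_main {m j i y : ℕ} (hev : m % 2 = 0) (h4 : 4 ≤ m) (hdvd : y ∣ (m + 1) * (m * (m + 2)))
    (hH : j ^ 5 * i < (m + 1) ^ 4 * ((m + 1) ^ 4 + (m + 1) ^ 2 + 1)) (hi : 1 + (m + 1) * m ≤ i)
    (hj : (m + 1) * (m * (m + 2)) ≤ j * y)
    (hcase : y ≤ 2 * (m + 2) ∨ y = 24 ∨ y = 48 ∨ y = 120 ∨ ∃ k, k ^ 2 ≤ m + 1 ∧ y ≤ 2 * (k * (k ^ 2 - 1))) :
    (m = 4 ∧ y = 24 ∧ j < 10) ∨ (m = 4 ∧ y = 120) ∨ (m = 6 ∧ y = 48 ∧ j < 14) ∨ (m = 10 ∧ y = 120 ∧ j < 22) ∨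
    (m = 8 ∧ y = 120 ∧ j < 15) := by
  have hj5 := j5 hH hi
  rcases hcase with h | rfl | rfl | rfl | ⟨k, hk, hy⟩
  · exact absurd (num_small h4 hj5 hj h) id
  · rcases Nat.lt_or_ge m 6 with h6 | h6
    · left
      obtain rfl : m = 4 := by omega
      exact ⟨rfl, rfl, j_lt hj5 (by norm_num)⟩
    · exfalso
      obtain ⟨n, rfl⟩ : ∃ n, m = n + 6 := ⟨m - 6, by omega⟩
      exact num_y hj5 hj le_rfl (by norm_num) (p_24 n)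
  · rcases Nat.lt_or_ge m 8 with h6 | h6
    · obtain rfl | rfl : m = 4 ∨ m = 6 := by omega
      · exfalso; revert hdvd; norm_num
      · right; right; left
        exact ⟨rfl, rfl, j_lt hj5 (by norm_num)⟩
    · exfalso
      obtain ⟨n, rfl⟩ : ∃ n, m = n + 8 := ⟨m - 8, by omega⟩
      exact num_y hj5 hj le_rfl (by norm_num) (p_48 n)
  · rcases Nat.lt_or_ge m 14 with h6 | h6
    · obtain rfl | rfl | rfl | rfl | rfl : m = 4 ∨ m = 6 ∨ m = 8 ∨ m = 10 ∨ m = 12 := by omega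
      · exact Or.inr (Or.inl ⟨rfl, rfl⟩)
      · exfalso; revert hdvd; norm_num
      · right; right; right; right
        exact ⟨rfl, rfl, j_lt hj5 (by norm_num)⟩
      · right; right; right; left
        exact ⟨rfl, rfl, j_lt hj5 (by norm_num)⟩
      · exfalso; revert hdvd; norm_num
    · exfalso
      obtain ⟨n, rfl⟩ : ∃ n, m = n + 14 := ⟨m - 14, by omega⟩
      exact num_y hj5 hj le_rfl (by norm_num) (p_120 n)
  · exfalso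
    rcases Nat.lt_or_ge m 8 with h8 | h8
    · have hk2 : k ≤ 2 := by
        by_contra hcon
        have : 3 ^ 2 ≤ k ^ 2 := Nat.pow_le_pow_left (by omega) 2
        omega
      refine num_small h4 hj5 hj (hy.trans ?_)
      interval_cases k <;> omega
    · exact num_k h8 hj5 hj hk hy

end Cfsg.Agent.H747.IFG
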