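import Mathlib

/-!
# Counting involutions by conjugation, and an index (helper747)
-/

set_option autoImplicit false

namespace Cfsg.Agent.H747.IFG

open Subgroup

theorem orderOf_cj {C : Type*} [Group C] (g x : C) : orderOf (g * x * g⁻¹) = orderOf x :=
  orderOf_injective (MulAut.conj g).toMonoidHom (MulAut.conj g).injective x

/-- the conjugates of an involution `s ≠ z` under `φ(G₁) ≤ A`, and `z` -/
theorem orb {C : Type*} [Group C] [Finite C] {G₁ : Type*} [Group G₁] [Finite G₁] (φ : G₁ →* C) {A : Subgroup C}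
    {z s : C} (hz : ∀ g, g * z = z * g) (oz : orderOf z = 2) (hzA : z ∈ A) (os : orderOf s = 2) (hs : s ∈ A)
    (hne : s ≠ z) (hφ : ∀ x, φ x ∈ A) {c : ℕ} (hc : Nat.card {x : G₁ // φ x * s = s * φ x} ≤ c) :
    Nat.card G₁ + c ≤ c * {t : C | t ∈ A ∧ orderOf t = 2}.ncard := by
  classical
  have := Fintype.ofFinite C
  have := Fintype.ofFinite G₁
  obtain ⟨f, hf⟩ : ∃ f : G₁ → C, ∀ x, f x = φ x * s * (φ x)⁻¹ := ⟨fun x => φ x * s * (φ x)⁻¹, fun _ => rfl⟩
  have h1 : (Finset.univ : Finset G₁).card ≤ c * (Finset.univ.image f).card := by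
    refine Finset.card_le_mul_card_image _ c fun a ha => ?_
    obtain ⟨x₀, -, rfl⟩ := Finset.mem_image.1 ha
    refine le_trans ?_ hc
    rw [Nat.card_eq_fintype_card, Fintype.card_subtype]
    refine Finset.card_le_card_of_injOn (fun x => x₀⁻¹ * x) ?_ ?_
    · intro x hx
      rw [Finset.mem_coe, Finset.mem_filter] at hx ⊢
      refine ⟨Finset.mem_univ _, ?_⟩
      have h2 := hx.2
      rw [hf, hf] at h2
      rw [map_mul, map_inv]
      calc (φ x₀)⁻¹ * φ x * s = (φ x₀)⁻¹ * (φ x * s * (φ x)⁻¹) * φ x := by group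
        _ = (φ x₀)⁻¹ * (φ x₀ * s * (φ x₀)⁻¹) * φ x := by rw [h2]
        _ = _ := by group
    · intro x _ y _ h
      exact mul_left_cancel h
  have h2 : (Finset.univ.image f).card + 1 ≤ {t : C | t ∈ A ∧ orderOf t = 2}.ncard := by
    have h3 : z ∉ Finset.univ.image f := by
      intro h
      obtain ⟨x, -, hx⟩ := Finset.mem_image.1 h
      rw [hf] at hx
      apply hne
      calc s = (φ x)⁻¹ * (φ x * s * (φ x)⁻¹) * φ x := by group
        _ = (φ x)⁻¹ * (z * φ x) := by rw [hx]; group
        _ = z := by rw [← hz]; group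
    rw [← Finset.card_insert_of_notMem h3, ← Set.ncard_coe_finset]
    refine Set.ncard_le_ncard ?_ (Set.toFinite _)
    intro t ht
    rw [Finset.mem_coe, Finset.mem_insert] at ht
    rcases ht with rfl | ht
    · exact ⟨hzA, oz⟩
    · obtain ⟨x, -, rfl⟩ := Finset.mem_image.1 ht
      rw [hf]
      exact ⟨A.mul_mem (A.mul_mem (hφ x) hs) (A.inv_mem (hφ x)), by rw [orderOf_cj, os]⟩
  rw [Finset.card_univ, ← Nat.card_eq_fintype_card] at h1
  calc Nat.card G₁ + c ≤ c * (Finset.univ.image f).card + c := by omega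
    _ = c * ((Finset.univ.image f).card + 1) := by ring
    _ ≤ _ := Nat.mul_le_mul_left _ h2

theorem card_mul_relIndex {C : Type*} [Group C] {H K : Subgroup C} (h : H ≤ K) :
    Nat.card H * H.relIndex K = Nat.card K := by
  have h1 := relIndex_mul_relIndex (⊥ : Subgroup C) H K bot_le h
  rwa [relIndex_bot_left, relIndex_bot_left] at h1

/-- `|N : A ∩ N|` divides `|C : A|` for `N` normal -/
theorem relIndex_dvd {C : Type*} [Group C] [Finite C] (A N : Subgroup C) [N.Normal] : A.relIndex N ∣ A.index := by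
  have h1 : A.relIndex (A ⊔ N) = A.relIndex N := by
    have e1 : N.relIndex (A ⊔ N) = N.relIndex A := Subgroup.relIndex_sup_right A N
    have e2 : Nat.card N * N.relIndex (A ⊔ N) = Nat.card (A ⊔ N : Subgroup C) := card_mul_relIndex le_sup_right
    have e3 : Nat.card A * A.relIndex (A ⊔ N) = Nat.card (A ⊔ N : Subgroup C) := card_mul_relIndex le_sup_left
    have e4 : Nat.card (A ⊓ N : Subgroup C) * (A ⊓ N).relIndex N = Nat.card N := card_mul_relIndex inf_le_right
    have e5 : Nat.card (A ⊓ N : Subgroup C) * (A ⊓ N).relIndex A = Nat.card A := card_mul_relIndex inf_le_left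
    rw [Subgroup.inf_relIndex_left] at e5
    rw [Subgroup.inf_relIndex_right] at e4
    have hpos : 0 < Nat.card A := Nat.card_pos
    apply Nat.eq_of_mul_eq_mul_left hpos
    rw [e3, ← e2, e1, ← e4]
    calc Nat.card (A ⊓ N : Subgroup C) * A.relIndex N * N.relIndex A =
        Nat.card (A ⊓ N : Subgroup C) * N.relIndex A * A.relIndex N := by ring
      _ = Nat.card A * A.relIndex N := by rw [e5]
  rw [← h1, ← relIndex_mul_index (le_sup_left : A ≤ A ⊔ N)]
  exact dvd_mul_right _ _

end Cfsg.Agent.H747.IFG
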