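import Cfsg.Agent.H747.IFG.Dick
import Cfsg.Agent.H747.IFG.Num
import Cfsg.Agent.H747.IFG.Orb
import Cfsg.Agent.H917.IFG.Nine
import Cfsg.Agent.H411.IFU.OddCount

/-!
# The centraliser of an involution in `G₂(q)`, `q` odd: a subgroup containing one `SL₂(q)` and a second involution
(S5719, helper747)
-/

set_option autoImplicit false
set_option linter.unusedSectionVars false

namespace Cfsg.Agent.H747.IFG

open Subgroup
open Cfsg.Agent.H411.IFU (odd_count one_count)
open Cfsg.Agent.H917.IFG (nine)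
open Cfsg.Agent.ClassicalGeometry.PSL2Basic

/-- `C = (K ∘ K').2` -/
structure Frm {F F' : Type*} [Field F] [Fintype F] [Field F'] [Fintype F'] {C : Type*} [Group C]
    (m : ℕ) (ρ : Matrix.SpecialLinearGroup (Fin 2) F →* C) (ρ' : Matrix.SpecialLinearGroup (Fin 2) F' →* C)
    (z : C) : Prop where
  cF : Fintype.card F = m + 1
  cF' : Fintype.card F' = m + 1
  ev : m % 2 = 0
  inj : Function.Injective ρ
  inj' : Function.Injective ρ'
  comm : ∀ x y, ρ x * ρ' y = ρ' y * ρ x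
  hz : ∀ g, g * z = z * g
  oz : orderOf z = 2
  cap : ∀ x y, ρ x = ρ' y → ρ x = 1 ∨ ρ x = z
  zK : z ∈ ρ.range
  zK' : z ∈ ρ'.range
  cen : ∀ x ∈ Subgroup.center (Matrix.SpecialLinearGroup (Fin 2) F'), ρ' x = 1 ∨ ρ' x = z
  card : Nat.card C = ((m + 1) * (m * (m + 2))) ^ 2
  nrm : ∀ g x, ∃ x', g * ρ x * g⁻¹ = ρ x'
  nrm' : ∀ g x, ∃ x', g * ρ' x * g⁻¹ = ρ' x'
  cK : ∀ s, orderOf s = 2 → s ≠ z → Nat.card {x : Matrix.SpecialLinearGroup (Fin 2) F // ρ x * s = s * ρ x} ≤ m + 2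
  cU : ∀ s, orderOf s = 2 → s ≠ z → ∀ u : Matrix.SpecialLinearGroup (Fin 2) F', u ^ (m + 1) = 1 →
    ρ' u * s = s * ρ' u → u = 1
  cU2 : ∀ u : Matrix.SpecialLinearGroup (Fin 2) F', u ≠ 1 → u ^ (m + 1) = 1 → ∀ g, g * ρ' u = ρ' u * g →
    ∃ x y, g = ρ x * ρ' y
  cC : ∀ s, orderOf s = 2 → s ≠ z → Nat.card (centralizer ({s} : Set C)) ≤ 2 * (m + 2) ^ 2
  two : ∃ s₁ s₂, orderOf s₁ = 2 ∧ orderOf s₂ = 2 ∧ s₁ ≠ z ∧ s₂ ≠ z ∧ ¬ IsConj s₁ s₂ ∧
    Nat.card (centralizer ({s₁} : Set C)) ≤ 2 * m ^ 2 ∧ Nat.card (centralizer ({s₂} : Set C)) ≤ 2 * (m + 2) ^ 2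

variable {F F' : Type*} [Field F] [Fintype F] [Field F'] [Fintype F'] {C : Type*} [Group C] [Finite C] {m : ℕ}
  {ρ : Matrix.SpecialLinearGroup (Fin 2) F →* C} {ρ' : Matrix.SpecialLinearGroup (Fin 2) F' →* C} {z : C}

theorem Frm.cardSL (h : Frm m ρ ρ' z) :
    Nat.card (Matrix.SpecialLinearGroup (Fin 2) F) = (m + 1) * (m * (m + 2)) := by
  rw [card_SL2, h.cF, qq]

theorem Frm.cardSL' (h : Frm m ρ ρ' z) :
    Nat.card (Matrix.SpecialLinearGroup (Fin 2) F') = (m + 1) * (m * (m + 2)) := by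
  rw [card_SL2, h.cF', qq]

/-- the product homomorphism on `SL₂(F) × P` -/
def prd (hc : ∀ x y, ρ x * ρ' y = ρ' y * ρ x) (P : Subgroup (Matrix.SpecialLinearGroup (Fin 2) F')) :
    Matrix.SpecialLinearGroup (Fin 2) F × P →* C where
  toFun p := ρ p.1 * ρ' p.2
  map_one' := by simp
  map_mul' p q := by
    change ρ (p.1 * q.1) * ρ' ((p.2 * q.2 : P) : _) = ρ p.1 * ρ' p.2 * (ρ q.1 * ρ' q.2)
    rw [map_mul, Subgroup.coe_mul, map_mul]
    have h := hc q.1 p.2
    calc ρ p.1 * ρ q.1 * (ρ' p.2 * ρ' q.2) = ρ p.1 * (ρ q.1 * ρ' p.2) * ρ' q.2 := by group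
      _ = _ := by rw [h]; group

theorem prd_apply (hc : ∀ x y, ρ x * ρ' y = ρ' y * ρ x) (P : Subgroup (Matrix.SpecialLinearGroup (Fin 2) F'))
    (x : Matrix.SpecialLinearGroup (Fin 2) F) (y : P) : prd hc P (x, y) = ρ x * ρ' y := rfl

/-- the conjugates of `s` under `K P` -/
theorem Frm.orbP (h : Frm m ρ ρ' z) {A : Subgroup C} (hKA : ρ.range ≤ A) {s : C} (hsA : s ∈ A) (os : orderOf s = 2)
    (hsz : s ≠ z) (P : Subgroup (Matrix.SpecialLinearGroup (Fin 2) F')) (hP : ∀ u ∈ P, ρ' u ∈ A ∧ u ^ (m + 1) = 1)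
    (hPs : ∀ u ∈ P, ∀ u', s * ρ' u * s⁻¹ = ρ' u' → u' ∈ P) :
    (m + 1) * m * Nat.card P + 1 ≤ {t : C | t ∈ A ∧ orderOf t = 2}.ncard := by
  have hss : s * s = 1 := by rw [← pow_two, ← os, pow_orderOf_eq_one]
  have hc : Nat.card {p : Matrix.SpecialLinearGroup (Fin 2) F × P // prd h.comm P p * s = s * prd h.comm P p} ≤ m + 2 := by
    refine le_trans ?_ (h.cK s os hsz)
    have key : ∀ (x : Matrix.SpecialLinearGroup (Fin 2) F) (u : P), ρ x * ρ' u * s = s * (ρ x * ρ' u) →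
        (ρ x * s = s * ρ x) ∧ (u : Matrix.SpecialLinearGroup (Fin 2) F') = 1 := by
      intro x u he
      obtain ⟨x', hx'⟩ := h.nrm s x
      obtain ⟨u', hu'⟩ := h.nrm' s u
      have hu'P := hPs u u.2 u' hu'
      have e1 : ρ (x⁻¹ * x') = ρ' (u * u'⁻¹) := by
        rw [map_mul, map_mul, map_inv, map_inv, ← hx', ← hu']
        have e2 : ρ x * ρ' (u : Matrix.SpecialLinearGroup (Fin 2) F') = s * ρ x * s⁻¹ * (s * ρ' u * s⁻¹) := by
          calc ρ x * ρ' (u : Matrix.SpecialLinearGroup (Fin 2) F') = ρ x * ρ' u * s * s⁻¹ := by group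
            _ = s * (ρ x * ρ' u) * s⁻¹ := by rw [he]
            _ = _ := by group
        calc (ρ x)⁻¹ * (s * ρ x * s⁻¹) = (ρ x)⁻¹ * (s * ρ x * s⁻¹ * (s * ρ' u * s⁻¹)) * (s * ρ' u * s⁻¹)⁻¹ := by group
          _ = _ := by rw [← e2]; group
      have e3 : ρ' (u * u'⁻¹) = 1 := by
        rcases h.cap _ _ e1 with h1 | h1
        · rw [← e1, h1]
        · exfalso
          have h4 : (ρ' (u * u'⁻¹)) ^ (m + 1) = 1 := by
            have := (hP _ (P.mul_mem u.2 (P.inv_mem hu'P))).2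
            rw [← map_pow, this, map_one]
          rw [← e1, h1] at h4
          have h5 := orderOf_dvd_of_pow_eq_one h4
          rw [h.oz] at h5
          have := h.ev
          omega
      have e4 : (u : Matrix.SpecialLinearGroup (Fin 2) F') = u' := by
        have := h.inj' (e3.trans (map_one ρ').symm)
        exact mul_inv_eq_one.1 this
      have e5 : (u : Matrix.SpecialLinearGroup (Fin 2) F') = 1 := by
        refine h.cU s os hsz _ (hP _ u.2).2 ?_
        rw [← e4, mul_inv_eq_iff_eq_mul] at hu'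
        exact hu'.symm
      refine ⟨?_, e5⟩
      rw [e5, map_one, mul_one] at he
      exact he
    refine Nat.card_le_card_of_injective (fun p => ⟨p.1.1, (key p.1.1 p.1.2 p.2).1⟩) ?_
    rintro ⟨⟨x, u⟩, hp⟩ ⟨⟨x', u'⟩, hp'⟩ he
    have e1 : x = x' := congrArg Subtype.val he
    have e2 : (u : Matrix.SpecialLinearGroup (Fin 2) F') = u' := (key x u hp).2.trans (key x' u' hp').2.symm
    exact Subtype.ext (Prod.ext e1 (Subtype.ext e2))
  have h1 := orb (prd h.comm P) h.hz h.oz (hKA h.zK) os hsA hsz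
    (fun p => A.mul_mem (hKA ⟨p.1, rfl⟩) (hP _ p.2.2).1) hc
  rw [Nat.card_prod, h.cardSL] at h1
  have h2 : (m + 2) * ((m + 1) * m * Nat.card P + 1) ≤ (m + 2) * {t : C | t ∈ A ∧ orderOf t = 2}.ncard := by
    refine le_trans (le_of_eq ?_) h1
    ring
  exact Nat.le_of_mul_le_mul_left h2 (by omega)


theorem Frm.odd_case (h : Frm m ρ ρ' z) {A : Subgroup C} (hzA : z ∈ A) (hidx : A.index = m + 1)
    (hm : m = 4 ∨ m = 6 ∨ m = 10)
    (hH : A.index ^ 5 * {t : C | t ∈ A ∧ orderOf t = 2}.ncard < (m + 1) ^ 4 * ((m + 1) ^ 4 + (m + 1) ^ 2 + 1)) :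
    False := by
  obtain ⟨s₁, s₂, o1, o2, n1, n2, hn, k1, k2⟩ := h.two
  have hodd : Odd A.index := by rw [hidx]; exact Nat.odd_iff.2 (by have := h.ev; omega)
  have h1 := odd_count hodd h.hz h.oz hzA o1 o2 n1 n2 hn k1 k2
  have h2 := A.card_mul_index
  rw [h.card, hidx] at h2
  rw [hidx] at hH
  generalize {t : C | t ∈ A ∧ orderOf t = 2}.ncard = i at h1 hH
  generalize Nat.card A = a at h1 h2
  rcases hm with rfl | rfl | rfl
  · have : a = 2880 := by omega
    subst this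
    norm_num at h1 hH
    omega
  · have : a = 16128 := by omega
    subst this
    norm_num at h1 hH
    omega
  · have : a = 158400 := by omega
    subst this
    norm_num at h1 hH
    omega

theorem Frm.nine_case (h : Frm 8 ρ ρ' z) {A : Subgroup C} (hKA : ρ.range ≤ A) {s : C} (hsA : s ∈ A)
    (os : orderOf s = 2) (hsz : s ≠ z) (hY : Nat.card (A.comap ρ') = 120)
    (h5 : Nonempty ((A.comap ρ').map (QuotientGroup.mk' (Subgroup.center (Matrix.SpecialLinearGroup (Fin 2) F'))) ≃*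
      alternatingGroup (Fin 5)))
    (hj : A.index = 6 ∨ A.index = 12)
    (hH : A.index ^ 5 * {t : C | t ∈ A ∧ orderOf t = 2}.ncard < (8 + 1) ^ 4 * ((8 + 1) ^ 4 + (8 + 1) ^ 2 + 1)) :
    False := by
  have hzA := hKA h.zK
  have h2 := A.card_mul_index
  rw [h.card] at h2
  rcases hj with hj | hj
  · have h3 : Nat.card A = 86400 := by rw [hj] at h2; omega
    have hM : ∀ g, g ∈ (prd h.comm (A.comap ρ')).range ↔ ∃ x, ∃ y ∈ A.comap ρ', g = ρ x * ρ' y :=
      fun g => ⟨fun ⟨p, hp⟩ => ⟨p.1, p.2, p.2.2, hp.symm⟩, fun ⟨x, y, hy, e⟩ => ⟨(x, ⟨y, hy⟩), e.symm⟩⟩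
    -- the subgroup `K K'`
    obtain ⟨M, hMd⟩ : ∃ M, M = (prd h.comm (⊤ : Subgroup (Matrix.SpecialLinearGroup (Fin 2) F'))).range := ⟨_, rfl⟩
    have hM' : ∀ g, g ∈ M ↔ ∃ x y, g = ρ x * ρ' y := by
      intro g
      rw [hMd]
      exact ⟨fun ⟨p, hp⟩ => ⟨p.1, p.2, hp.symm⟩, fun ⟨x, y, e⟩ => ⟨(x, ⟨y, mem_top _⟩), e.symm⟩⟩
    have hcen : Subgroup.center _ ≤ A.comap ρ' := by
      intro x hx
      change ρ' x ∈ A
      rcases h.cen x hx with e | e
      · rw [e]; exact one_mem _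
      · rw [e]; exact hzA
    have hAM : A ≤ M := nine h.cF' ρ' h.inj' A M (by
      rintro _ ⟨y, rfl⟩
      exact (hM' _).2 ⟨1, y, by rw [map_one, one_mul]⟩) h.nrm' (fun u hu1 hu3 g hg => by
      rw [hM']
      refine h.cU2 u hu1 ?_ g hg
      rw [show 8 + 1 = 3 * 3 by norm_num, pow_mul, hu3, one_pow]) hcen h5
    have hAr : A ≤ (prd h.comm (A.comap ρ')).range := by
      intro g hg
      obtain ⟨x, y, e⟩ := (hM' g).1 (hAM hg)
      refine (hM g).2 ⟨x, y, ?_, e⟩
      change ρ' y ∈ A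
      have : ρ' y = (ρ x)⁻¹ * g := by rw [e]; group
      rw [this]
      exact A.mul_mem (A.inv_mem (hKA ⟨x, rfl⟩)) hg
    have h4 := Subgroup.card_eq_card_quotient_mul_card_subgroup (prd h.comm (A.comap ρ')).ker
    rw [Nat.card_prod, Nat.card_congr (QuotientGroup.quotientKerEquivRange (prd h.comm (A.comap ρ'))).toEquiv,
      hY, h.cardSL] at h4
    have h6 : 1 < Nat.card (prd h.comm (A.comap ρ')).ker := by
      rw [Subgroup.one_lt_card_iff_ne_bot]
      intro hbot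
      obtain ⟨x, hx⟩ := h.zK
      obtain ⟨y, hy⟩ := h.zK'
      have hyY : y ∈ A.comap ρ' := by change ρ' y ∈ A; rw [hy]; exact hzA
      have hzz : z * z = 1 := by rw [← pow_two, ← h.oz, pow_orderOf_eq_one]
      have h7 : ((x, ⟨y, hyY⟩) : Matrix.SpecialLinearGroup (Fin 2) F × (A.comap ρ')) ∈
          (prd h.comm (A.comap ρ')).ker := by
        rw [MonoidHom.mem_ker, prd_apply, hx, hy, hzz]
      rw [hbot, mem_bot] at h7
      have h8 : x = 1 := congrArg Prod.fst h7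
      rw [h8, map_one] at hx
      have := h.oz
      rw [← hx, orderOf_one] at this
      omega
    have h7 : Nat.card A ≤ Nat.card (prd h.comm (A.comap ρ')).range := Subgroup.card_le_of_le hAr
    rw [h3] at h7
    generalize Nat.card (prd h.comm (A.comap ρ')).range = r at h4 h7
    generalize Nat.card (prd h.comm (A.comap ρ')).ker = k at h4 h6
    have : 86400 * 2 ≤ r * k := Nat.mul_le_mul h7 h6
    omega
  · have h3 : Nat.card A = 43200 := by rw [hj] at h2; omega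
    have h1 := one_count h.hz h.oz hzA os hsA hsz (h.cC s os hsz)
    rw [hj] at hH
    rw [h3] at h1
    generalize {t : C | t ∈ A ∧ orderOf t = 2}.ncard = i at h1 hH
    norm_num at h1 hH
    omega

/-- **The second `SL₂(q)`.** -/
theorem Frm.main (h : Frm m ρ ρ' z) (h4 : 4 ≤ m) {A : Subgroup C} (hKA : ρ.range ≤ A) {s : C} (hsA : s ∈ A)
    (os : orderOf s = 2) (hsz : s ≠ z)
    (hH : A.index ^ 5 * {t : C | t ∈ A ∧ orderOf t = 2}.ncard < (m + 1) ^ 4 * ((m + 1) ^ 4 + (m + 1) ^ 2 + 1)) :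
    ρ'.range ≤ A := by
  classical
  by_contra hcon
  obtain ⟨Y, hYd⟩ : ∃ Y, Y = A.comap ρ' := ⟨_, rfl⟩
  have hmem : ∀ y, y ∈ Y ↔ ρ' y ∈ A := by intro y; rw [hYd]; rfl
  have hYtop : Y ≠ ⊤ := by
    intro h0
    apply hcon
    rintro _ ⟨y, rfl⟩
    rw [← hmem, h0]
    exact mem_top _
  have hzA := hKA h.zK
  have hcen : Subgroup.center (Matrix.SpecialLinearGroup (Fin 2) F') ≤ Y := by
    intro x hx
    rw [hmem]
    rcases h.cen x hx with e | e
    · rw [e]; exact one_mem _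
    · rw [e]; exact hzA
  have hYc : Nat.card Y * Y.index = (m + 1) * (m * (m + 2)) := by rw [Y.card_mul_index, h.cardSL']
  have hidx : Y.index = A.relIndex ρ'.range := by rw [hYd, index_comap]
  have hN : (ρ'.range).Normal := ⟨by
    rintro _ ⟨x, rfl⟩ g
    obtain ⟨x', hx'⟩ := h.nrm' g x
    exact ⟨x', hx'.symm⟩⟩
  have hdvd : Y.index ∣ A.index := by rw [hidx]; exact relIndex_dvd A ρ'.range
  have hApos : 0 < A.index := Nat.pos_of_ne_zero index_ne_zero_of_finite
  have hle : Y.index ≤ A.index := Nat.le_of_dvd hApos hdvd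
  have hj : (m + 1) * (m * (m + 2)) ≤ A.index * Nat.card Y := by
    rw [← hYc, mul_comm]; exact Nat.mul_le_mul_right _ hle
  have hi : 1 + (m + 1) * m ≤ {t : C | t ∈ A ∧ orderOf t = 2}.ncard := by
    have h1 := h.orbP hKA hsA os hsz ⊥ (by
      intro u hu
      rw [mem_bot] at hu
      rw [hu, map_one, one_pow]
      exact ⟨one_mem _, rfl⟩) (by
      intro u hu u' hu'
      rw [mem_bot] at hu ⊢
      rw [hu, map_one, mul_one, mul_inv_cancel] at hu'
      exact h.inj' (hu'.symm.trans (map_one ρ').symm))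
    rw [Subgroup.card_bot, mul_one] at h1
    omega
  obtain ⟨p, hp⟩ := CharP.exists F'
  have hpp : p.Prime := CharP.char_is_prime F' p
  have : Fact p.Prime := ⟨hpp⟩
  have hev := h.ev
  have hodd : Odd (Fintype.card F') := by rw [h.cF']; exact Nat.odd_iff.2 (by omega)
  obtain ⟨n, -, hn⟩ := FiniteField.card F' p
  have hp2 : p ≠ 2 := by
    rintro rfl
    rw [hn] at hodd
    have h2 : Even (2 ^ (n : ℕ)) := (Nat.even_pow' n.ne_zero).2 even_two
    exact (Nat.not_even_iff_odd.2 hodd) h2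
  rcases sub_sl p hp2 hodd Y hYtop hcen with ⟨P, hPm, hPy, hPq⟩ | hcase
  · rw [h.cF'] at hPm hPy hPq
    have hinv : ∀ u ∈ P, ∀ u', s * ρ' u * s⁻¹ = ρ' u' → u' ∈ P := by
      intro u hu u' hu'
      rw [hPm] at hu ⊢
      refine ⟨?_, ?_⟩
      · rw [hmem, ← hu']
        exact A.mul_mem (A.mul_mem hsA ((hmem u).1 hu.1)) (A.inv_mem hsA)
      · apply h.inj'
        rw [map_pow, ← hu', conj_pow, ← map_pow, hu.2, map_one, mul_one, mul_inv_cancel]
    have h1 := h.orbP hKA hsA os hsz P (fun u hu => ⟨(hmem u).1 ((hPm u).1 hu).1, ((hPm u).1 hu).2⟩) hinv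
    rw [Nat.add_sub_cancel] at hPy
    exact num_B h4 hH (by omega) hj hPy hPq
  · rw [h.cF'] at hcase
    have hcase' : Nat.card Y ≤ 2 * (m + 2) ∨ Nat.card Y = 24 ∨ Nat.card Y = 48 ∨ Nat.card Y = 120 ∨
        ∃ k, k ^ 2 ≤ m + 1 ∧ Nat.card Y ≤ 2 * (k * (k ^ 2 - 1)) := by
      rcases hcase with h0 | h0 | h0 | ⟨h0, -⟩ | h0
      · exact Or.inl h0
      · exact Or.inr (Or.inl h0)
      · exact Or.inr (Or.inr (Or.inl h0))
      · exact Or.inr (Or.inr (Or.inr (Or.inl h0)))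
      · exact Or.inr (Or.inr (Or.inr (Or.inr h0)))
    rcases num_main hev h4 ⟨_, hYc.symm⟩ hH hi hj hcase' with ⟨rfl, hy, hj'⟩ | ⟨rfl, hy⟩ | ⟨rfl, hy, hj'⟩ |
      ⟨rfl, hy, hj'⟩ | ⟨rfl, hy, hj'⟩
    · rw [hy] at hYc
      have h1 : Y.index = 5 := by omega
      obtain ⟨w, hw⟩ := hdvd
      rw [h1] at hw
      have hw1 : w = 1 := by
        have : 5 * w < 10 := by rw [← hw]; exact hj'
        have : w ≠ 0 := by rintro rfl; omega
        omega
      rw [hw1] at hw
      exact h.odd_case hzA hw (Or.inl rfl) hH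
    · rw [hy] at hYc
      exact hYtop (index_eq_one.1 (by omega))
    · rw [hy] at hYc
      have h1 : Y.index = 7 := by omega
      obtain ⟨w, hw⟩ := hdvd
      rw [h1] at hw
      have hw1 : w = 1 := by
        have : 7 * w < 14 := by rw [← hw]; exact hj'
        have : w ≠ 0 := by rintro rfl; omega
        omega
      rw [hw1] at hw
      exact h.odd_case hzA hw (Or.inr (Or.inl rfl)) hH
    · rw [hy] at hYc
      have h1 : Y.index = 11 := by omega
      obtain ⟨w, hw⟩ := hdvd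
      rw [h1] at hw
      have hw1 : w = 1 := by
        have : 11 * w < 22 := by rw [← hw]; exact hj'
        have : w ≠ 0 := by rintro rfl; omega
        omega
      rw [hw1] at hw
      exact h.odd_case hzA hw (Or.inr (Or.inr rfl)) hH
    · have hYc' := hYc
      rw [hy] at hYc'
      have h1 : Y.index = 6 := by omega
      obtain ⟨w, hw⟩ := hdvd
      rw [h1] at hw
      have hw1 : w = 1 ∨ w = 2 := by
        have : 6 * w < 15 := by rw [← hw]; exact hj'
        have : w ≠ 0 := by rintro rfl; omega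
        omega
      have h9 : p ∣ 60 := by
        have h2 : p ∣ 3 * 3 := by
          rw [h.cF'] at hn
          have : 3 * 3 = p ^ (n : ℕ) := by omega
          rw [this]
          exact dvd_pow_self p n.ne_zero
        have h3 : p ∣ 3 := (or_self_iff.1 (hpp.dvd_mul.1 h2))
        exact h3.trans (by norm_num)
      have h5 : Nonempty (Y.map (QuotientGroup.mk' (Subgroup.center (Matrix.SpecialLinearGroup (Fin 2) F'))) ≃*
          alternatingGroup (Fin 5)) := by
        rcases hcase with h0 | h0 | h0 | ⟨-, h0⟩ | ⟨k, hk, h0⟩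
        · omega
        · omega
        · omega
        · exact h0 h9
        · exfalso
          have hk3 : k ≤ 3 := by
            by_contra hcon'
            have : 4 ^ 2 ≤ k ^ 2 := Nat.pow_le_pow_left (by omega) 2
            omega
          interval_cases k <;> omega
      subst hYd
      exact h.nine_case hKA hsA os hsz hy h5 (by rcases hw1 with rfl | rfl <;> omega) hH

end Cfsg.Agent.H747.IFG
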