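import Cfsg.Agent.S0799
import Cfsg.Agent.H344.DP.PslBound
import Cfsg.Agent.Lib.SL2Mat

/-!
# Large subgroups of `PSL₂(q)` and `SL₂(q)`, `q` odd (Dickson), for S5719, cell G2 (helper747)
-/

set_option autoImplicit false
set_option linter.unusedSectionVars false

namespace Cfsg.Agent.H747.IFG

open Matrix MulAction OnePoint
open Cfsg.Agent.ClassicalGeometry.PoleCount Cfsg.Agent.ClassicalGeometry.PoleCount.Pole
open Cfsg.Agent.ClassicalGeometry.PoleBridge
open Cfsg.Agent.ClassicalGeometry.PoleCases Cfsg.Agent.ClassicalGeometry.DicksonWild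
open Cfsg.Agent.ClassicalGeometry.PSL2Basic Cfsg.Agent.ClassicalGeometry.PSL2ElemOrder
open Cfsg.Agent.Lib.Mobius

open Classical in
/-- Dickson's list for `p ∣ |H|`, `p` odd; in the Borel case the group has a fixed point. -/
theorem wild {F : Type*} [Field F] [Fintype F] (p : ℕ) [Fact p.Prime] [CharP F p] (hp2 : p ≠ 2)
    (H : Subgroup (Matrix.ProjectiveSpecialLinearGroup (Fin 2) F)) (hp : p ∣ Nat.card H) :
    (∃ x : OnePoint F, ∀ g ∈ H, pslPerm F g x = x) ∨
    Nonempty (H ≃* alternatingGroup (Fin 5)) ∨ (∃ (K : Type) (_ : Field K) (_ : Fintype K) (m : ℕ),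
      Fintype.card K ^ m = Fintype.card F ∧ (Nonempty (H ≃* Matrix.ProjectiveSpecialLinearGroup (Fin 2) K) ∨
        Nonempty (H ≃* Matrix.ProjGenLinGroup (Fin 2) K))) := by
  let K := AlgebraicClosure F
  have : CharP K p := charP_of_injective_algebraMap (algebraMap F K).injective p
  let ι : F →+* K := algebraMap F K
  let φ : H →* Matrix.ProjectiveSpecialLinearGroup (Fin 2) K := (pslMap ι).comp H.subtype
  have hφ : Function.Injective φ := (pslMap_injective ι).comp H.subtype_injective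
  let _ := act φ
  have pole : Pole p K H (OnePoint K) := pole_of_injective p φ hφ
  have hact : ∀ (g : H) (x : OnePoint K), g • x = pslPerm K (pslMap ι (g : _)) x := fun _ _ => rfl
  obtain ⟨u, hu⟩ := exists_prime_orderOf_dvd_card' p hp
  have hup : u ^ p = 1 := by rw [← hu]; exact pow_orderOf_eq_one u
  have hu1 : u ≠ 1 := by
    rintro rfl
    rw [orderOf_one] at hu
    exact (Fact.out : p.Prime).one_lt.ne hu
  obtain ⟨x₀, hx₀⟩ := pole.one u hu1 hup
  have hx₀' : x₀ ∈ Op p H (OnePoint K) := ⟨u, hu1, hup, (hx₀ x₀).mpr rfl⟩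
  have hrat : ∀ x ∈ Op p H (OnePoint K), ∃ x' ∈ OpF p H, OnePoint.map ι x' = x := by
    rintro x ⟨v, hv1, hvp, hvx⟩
    have hvp' : (v : Matrix.ProjectiveSpecialLinearGroup (Fin 2) F) ^ p = 1 :=
      congrArg Subtype.val hvp
    obtain ⟨x', hx'⟩ := Cfsg.Agent.S0799.exists_fix_rational p _ hvp'
    refine ⟨x', ⟨v, v.2, fun h => hv1 (Subtype.ext h), hvp', hx'⟩, ?_⟩
    obtain ⟨y, hy⟩ := pole.one v hv1 hvp
    rw [(hy x).mp hvx]
    apply (hy _).mp
    rw [hact, Cfsg.Agent.S0799.pslPerm_map, hx']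
  by_cases hone : ∀ x ∈ Op p H (OnePoint K), x = x₀
  · left
    obtain ⟨x', -, hx'⟩ := hrat x₀ hx₀'
    refine ⟨x', fun g hg => ?_⟩
    have h1 := hone _ (smul_mem_Op (⟨g, hg⟩ : H) hx₀')
    apply Cfsg.Agent.S0799.map_injective ι
    rw [← Cfsg.Agent.S0799.pslPerm_map, hx']
    exact h1
  · right
    push Not at hone
    obtain ⟨x₁, hx₁, hne⟩ := hone
    rcases wild_cases pole hx₀' hx₁ (Ne.symm hne) with htr | ⟨k, hk0, hk, ⟨e⟩⟩ | hA5
    · right
      have hOp : ∀ x ∈ OpF p H, OnePoint.map ι x ∈ Op p H (OnePoint K) := by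
        rintro x ⟨v, hvH, hv1, hvp, hvx⟩
        refine ⟨⟨v, hvH⟩, fun h => hv1 (congrArg Subtype.val h), Subtype.ext hvp, ?_⟩
        rw [hact, Cfsg.Agent.S0799.pslPerm_map, hvx]
      have hTr : Trans p H := by
        intro x hx y hy z hz hyx hzx
        obtain ⟨g, hgp, hgx, hgy⟩ := htr _ (hOp x hx) _ (hOp y hy) _ (hOp z hz)
          (fun h => hyx (Cfsg.Agent.S0799.map_injective ι h)) (fun h => hzx (Cfsg.Agent.S0799.map_injective ι h))
        refine ⟨g, g.2, congrArg Subtype.val hgp, ?_, ?_⟩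
        · apply Cfsg.Agent.S0799.map_injective ι
          rw [← Cfsg.Agent.S0799.pslPerm_map, ← hact, hgx]
        · apply Cfsg.Agent.S0799.map_injective ι
          rw [← Cfsg.Agent.S0799.pslPerm_map, ← hact, hgy]
      obtain ⟨a, ha, hax⟩ := hrat x₀ hx₀'
      obtain ⟨b, hb, hbx⟩ := hrat x₁ hx₁
      have hab : a ≠ b := by
        rintro rfl
        exact hne (hbx.symm.trans hax)
      obtain ⟨L, i1, i2, m, hm, h3⟩ := main_trans p H ha hb hab hTr
      exact ⟨L, i1, i2, m, hm, h3⟩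
    · exfalso
      rw [Nat.card_congr e.toEquiv, DihedralGroup.nat_card] at hp
      rcases (Fact.out : p.Prime).dvd_mul.1 hp with h | h
      · exact hp2 ((Nat.prime_dvd_prime_iff_eq Fact.out Nat.prime_two).1 h)
      · exact hk h
    · exact Or.inl hA5


open Classical in
/-- proper subgroups of `PSL₂(q)`, `q` odd -/
theorem sub_psl {F : Type*} [Field F] [Fintype F] (p : ℕ) [Fact p.Prime] [CharP F p] (hp2 : p ≠ 2)
    (hodd : Odd (Fintype.card F)) (H : Subgroup (Matrix.ProjectiveSpecialLinearGroup (Fin 2) F)) (hH : H ≠ ⊤) :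
    (∃ x : OnePoint F, ∀ g ∈ H, pslPerm F g x = x) ∨ Nat.card H ≤ Fintype.card F + 1 ∨ Nat.card H = 12 ∨
    Nat.card H = 24 ∨ (Nat.card H = 60 ∧ (p ∣ 60 → Nonempty (H ≃* alternatingGroup (Fin 5)))) ∨
    ∃ k : ℕ, k ^ 2 ≤ Fintype.card F ∧ Nat.card H ≤ k * (k ^ 2 - 1) := by
  have hfin : Finite (Matrix.ProjectiveSpecialLinearGroup (Fin 2) F) := Quotient.finite _
  have hq : 1 < Fintype.card F := Fintype.one_lt_card
  by_cases hp : p ∣ Nat.card H
  · rcases wild p hp2 H hp with h | ⟨⟨e⟩⟩ | ⟨K, _, _, m, hm, h⟩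
    · exact Or.inl h
    · right; right; right; right; left
      refine ⟨?_, fun _ => ⟨e⟩⟩
      rw [Nat.card_congr e.toEquiv, nat_card_alternatingGroup, Nat.card_eq_fintype_card, Fintype.card_fin]
      rfl
    · right; right; right; right; right
      have hk : 1 < Fintype.card K := Fintype.one_lt_card
      have hle : Nat.card H ≤ Fintype.card K * (Fintype.card K ^ 2 - 1) := by
        rcases h with ⟨⟨e⟩⟩ | ⟨⟨e⟩⟩
        · rw [Nat.card_congr e.toEquiv, ← card_SL2 K]
          exact Nat.card_le_card_of_surjective _ (QuotientGroup.mk'_surjective _)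
        · rw [Nat.card_congr e.toEquiv, card_PGL2 K]
      have hcard := card_PSL2_odd F hodd
      have hlt : Nat.card H * 2 ≤ Nat.card (Matrix.ProjectiveSpecialLinearGroup (Fin 2) F) := by
        have h1 := H.card_mul_index
        have h2 : H.index ≠ 1 := fun h0 => hH (Subgroup.index_eq_one.1 h0)
        have h3 : H.index ≠ 0 := Subgroup.index_ne_zero_of_finite
        rw [← h1]
        exact Nat.mul_le_mul_left _ (by omega)
      refine ⟨Fintype.card K, ?_, hle⟩
      rcases Nat.lt_or_ge m 2 with h2 | h2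
      · exfalso
        have h3 : m = 0 ∨ m = 1 := by omega
        rcases h3 with rfl | rfl
        · rw [pow_zero] at hm; omega
        · rw [pow_one] at hm
          have hK : Odd (Fintype.card K) := by rw [hm]; exact hodd
          have hpos : 0 < Nat.card (Matrix.ProjectiveSpecialLinearGroup (Fin 2) F) := Nat.card_pos
          rcases h with ⟨⟨e⟩⟩ | ⟨⟨e⟩⟩
          · have h4 := card_PSL2_odd K hK
            rw [hm, ← hcard, ← Nat.card_congr e.toEquiv] at h4
            omega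
          · have h4 := card_PGL2 K
            rw [hm, ← hcard, ← Nat.card_congr e.toEquiv] at h4
            omega
      · rw [← hm]
        exact Nat.pow_le_pow_right (by omega) h2
  · rcases Cfsg.Agent.H344.DP.tame p H (by obtain ⟨r, hr⟩ := hodd; rw [hr]; omega) hp with h | h | h | h
    · exact Or.inr (Or.inl h)
    · exact Or.inr (Or.inr (Or.inl h))
    · exact Or.inr (Or.inr (Or.inr (Or.inl h)))
    · refine Or.inr (Or.inr (Or.inr (Or.inr (Or.inl ⟨h, fun h60 => ?_⟩))))
      rw [h] at hp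
      exact absurd h60 hp

section borel

open Cfsg.Agent.Lib.SL2Mat

variable {F : Type*} [Field F] [Fintype F]

theorem tri_mul {a b : SpecialLinearGroup (Fin 2) F} (_ha : ent a 1 0 = 0) (hb : ent b 1 0 = 0) :
    ent (a * b) 0 0 = ent a 0 0 * ent b 0 0 := by
  rw [ent_mul, hb, mul_zero, add_zero]

theorem tri_pow {a : SpecialLinearGroup (Fin 2) F} (ha : ent a 1 0 = 0) (n : ℕ) :
    ent (a ^ n) 1 0 = 0 ∧ ent (a ^ n) 0 0 = ent a 0 0 ^ n := by
  induction n with
  | zero => rw [pow_zero, pow_zero]; exact ⟨rfl, rfl⟩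
  | succ n ih =>
    rw [pow_succ, pow_succ]
    refine ⟨?_, ?_⟩
    · rw [ent_mul, ih.1, ha, zero_mul, mul_zero, add_zero]
    · rw [tri_mul ih.1 ha, ih.2]

theorem ent_det (a : SpecialLinearGroup (Fin 2) F) : ent a 0 0 * ent a 1 1 - ent a 0 1 * ent a 1 0 = 1 := by
  have h := a.2
  rw [Matrix.det_fin_two] at h
  exact h

theorem tri_pow_card {a : SpecialLinearGroup (Fin 2) F} (ha : ent a 1 0 = 0) :
    a ^ Fintype.card F = 1 ↔ ent a 0 0 = 1 := by
  have hdet : ent a 0 0 * ent a 1 1 = 1 := by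
    have h := ent_det a
    rwa [ha, mul_zero, sub_zero] at h
  constructor
  · intro h
    have h1 := (tri_pow ha (Fintype.card F)).2
    rw [h, FiniteField.pow_card] at h1
    rw [← h1]
    rfl
  · intro h
    have h11 : ent a 1 1 = 1 := by rwa [h, one_mul] at hdet
    have key : ∀ n : ℕ, ent (a ^ n) 0 1 = n * ent a 0 1 := by
      intro n
      induction n with
      | zero => rw [pow_zero, Nat.cast_zero, zero_mul]; rfl
      | succ n ih =>
        rw [pow_succ, ent_mul, ih, (tri_pow ha n).2, h, h11]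
        push_cast
        ring
    have k11 : ∀ n : ℕ, ent (a ^ n) 1 1 = 1 := by
      intro n
      have h2 := ent_det (a ^ n)
      rwa [(tri_pow ha n).1, (tri_pow ha n).2, h, one_pow, mul_zero, sub_zero, one_mul] at h2
    apply ext_ent
    · rw [(tri_pow ha _).2, h, one_pow]; rfl
    · rw [key, FiniteField.cast_card_eq_zero, zero_mul]; rfl
    · rw [(tri_pow ha _).1]; rfl
    · rw [k11]; rfl

/-- a subgroup of a Borel subgroup of `SL₂(q)` -/
theorem borel_sub (Y : Subgroup (SpecialLinearGroup (Fin 2) F)) (B : SpecialLinearGroup (Fin 2) F)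
    (hY : ∀ y ∈ Y, ent (B⁻¹ * y * B) 1 0 = 0) :
    ∃ P : Subgroup (SpecialLinearGroup (Fin 2) F), (∀ y, y ∈ P ↔ y ∈ Y ∧ y ^ Fintype.card F = 1) ∧
      Nat.card Y ≤ Nat.card P * (Fintype.card F - 1) ∧ Nat.card P ≤ Fintype.card F := by
  classical
  have hunit : ∀ y ∈ Y, ent (B⁻¹ * y * B) 0 0 * ent (B⁻¹ * y * B) 1 1 = 1 := by
    intro y hy
    have h := ent_det (B⁻¹ * y * B)
    rwa [hY y hy, mul_zero, sub_zero] at h
  let χ : Y →* Fˣ :=
    { toFun := fun y => ⟨ent (B⁻¹ * y.1 * B) 0 0, ent (B⁻¹ * y.1 * B) 1 1, hunit y y.2, by rw [mul_comm]; exact hunit y y.2⟩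
      map_one' := by
        apply Units.ext
        change ent (B⁻¹ * ((1 : Y) : SpecialLinearGroup (Fin 2) F) * B) 0 0 = 1
        have : B⁻¹ * ((1 : Y) : SpecialLinearGroup (Fin 2) F) * B = 1 := by
          rw [Subgroup.coe_one]; group
        rw [this]
        rfl
      map_mul' := by
        intro a b
        apply Units.ext
        change ent (B⁻¹ * ((a * b : Y) : SpecialLinearGroup (Fin 2) F) * B) 0 0 =
          ent (B⁻¹ * a.1 * B) 0 0 * ent (B⁻¹ * b.1 * B) 0 0
        have : B⁻¹ * ((a * b : Y) : SpecialLinearGroup (Fin 2) F) * B = (B⁻¹ * a.1 * B) * (B⁻¹ * b.1 * B) := by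
          rw [Subgroup.coe_mul]; group
        rw [this, tri_mul (hY a a.2) (hY b b.2)] }
  have hχ : ∀ y : Y, χ y = 1 ↔ (y : SpecialLinearGroup (Fin 2) F) ^ Fintype.card F = 1 := by
    intro y
    have h1 : χ y = 1 ↔ ent (B⁻¹ * y.1 * B) 0 0 = 1 := by
      rw [Units.ext_iff]
      rfl
    rw [h1, ← tri_pow_card (hY y y.2)]
    have h2 : (B⁻¹ * y.1 * B) ^ Fintype.card F = B⁻¹ * y.1 ^ Fintype.card F * B := by
      have := conj_pow (a := B⁻¹) (b := y.1) (i := Fintype.card F)
      rwa [inv_inv] at this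
    rw [h2]
    constructor
    · intro h
      have : y.1 ^ Fintype.card F = B * (B⁻¹ * y.1 ^ Fintype.card F * B) * B⁻¹ := by group
      rw [this, h]; group
    · intro h
      rw [h]; group
  have hmem : ∀ y, y ∈ χ.ker.map Y.subtype ↔ y ∈ Y ∧ y ^ Fintype.card F = 1 := by
    intro y
    constructor
    · rintro ⟨y, hy, rfl⟩
      exact ⟨y.2, (hχ y).1 hy⟩
    · rintro ⟨hy, h⟩
      exact ⟨⟨y, hy⟩, (hχ ⟨y, hy⟩).2 h, rfl⟩
  have hc : Nat.card (χ.ker.map Y.subtype) = Nat.card χ.ker :=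
    Subgroup.card_map_of_injective (Subgroup.subtype_injective _)
  refine ⟨χ.ker.map Y.subtype, hmem, ?_, ?_⟩
  · rw [hc, Subgroup.card_eq_card_quotient_mul_card_subgroup χ.ker, mul_comm]
    refine Nat.mul_le_mul_left _ ?_
    rw [Nat.card_congr (QuotientGroup.quotientKerEquivRange χ).toEquiv, ← Fintype.card_units, ← Nat.card_eq_fintype_card]
    exact Subgroup.card_le_card_group _
  · rw [← Nat.card_eq_fintype_card (α := F)]
    refine Nat.card_le_card_of_injective (fun y : χ.ker.map Y.subtype => ent (B⁻¹ * y.1 * B) 0 1) ?_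
    rintro ⟨a, ha⟩ ⟨b, hb⟩ hab
    have h1 := (hmem a).1 ha
    have h2 := (hmem b).1 hb
    have e00 : ∀ y, y ∈ Y → y ^ Fintype.card F = 1 → ent (B⁻¹ * y * B) 0 0 = 1 := by
      intro y hy hyq
      have := (hχ ⟨y, hy⟩).2 hyq
      rw [Units.ext_iff] at this
      exact this
    have e11 : ∀ y, y ∈ Y → y ^ Fintype.card F = 1 → ent (B⁻¹ * y * B) 1 1 = 1 := by
      intro y hy hyq
      have := hunit y hy
      rwa [e00 y hy hyq, one_mul] at this
    have h3 : B⁻¹ * a * B = B⁻¹ * b * B := by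
      apply ext_ent
      · exact (e00 a h1.1 h1.2).trans (e00 b h2.1 h2.2).symm
      · exact hab
      · exact (hY a h1.1).trans (hY b h2.1).symm
      · exact (e11 a h1.1 h1.2).trans (e11 b h2.1 h2.2).symm
    apply Subtype.ext
    calc a = B * (B⁻¹ * a * B) * B⁻¹ := by group
      _ = b := by rw [h3]; group

end borel

/-- **Large subgroups of `SL₂(q)`, `q` odd** -/
theorem sub_sl {F : Type*} [Field F] [Fintype F] (p : ℕ) [Fact p.Prime] [CharP F p] (hp2 : p ≠ 2)
    (hodd : Odd (Fintype.card F)) (Y : Subgroup (SpecialLinearGroup (Fin 2) F)) (hY : Y ≠ ⊤)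
    (hm : Subgroup.center (SpecialLinearGroup (Fin 2) F) ≤ Y) :
    (∃ P : Subgroup (SpecialLinearGroup (Fin 2) F), (∀ y, y ∈ P ↔ y ∈ Y ∧ y ^ Fintype.card F = 1) ∧
      Nat.card Y ≤ Nat.card P * (Fintype.card F - 1) ∧ Nat.card P ≤ Fintype.card F) ∨
    Nat.card Y ≤ 2 * (Fintype.card F + 1) ∨ Nat.card Y = 24 ∨
    Nat.card Y = 48 ∨ (Nat.card Y = 120 ∧ (p ∣ 60 → Nonempty (Y.map (QuotientGroup.mk'
      (Subgroup.center (SpecialLinearGroup (Fin 2) F))) ≃* alternatingGroup (Fin 5)))) ∨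
    ∃ k : ℕ, k ^ 2 ≤ Fintype.card F ∧ Nat.card Y ≤ 2 * (k * (k ^ 2 - 1)) := by
  classical
  have hfin : Finite (Matrix.ProjectiveSpecialLinearGroup (Fin 2) F) := Quotient.finite _
  obtain ⟨f, hf⟩ : ∃ f, f = QuotientGroup.mk' (Subgroup.center (SpecialLinearGroup (Fin 2) F)) := ⟨_, rfl⟩
  have hker : f.ker = Subgroup.center (SpecialLinearGroup (Fin 2) F) := by rw [hf]; exact QuotientGroup.ker_mk' _
  have hsur : Function.Surjective f := by rw [hf]; exact QuotientGroup.mk'_surjective _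
  have hcard : Nat.card (Y.map f) * 2 = Nat.card Y := by
    have h1 := Cfsg.Agent.H344.DP.card_map_mul f hsur Y (by rw [hker]; exact hm)
    rw [hker, card_center_SL2_odd ((two_ne_zero_iff_odd F).2 hodd)] at h1
    exact h1
  have hH : Y.map f ≠ ⊤ := by
    intro h
    apply hY
    have h1 := Subgroup.comap_map_eq_self (f := f) (H := Y) (by rw [hker]; exact hm)
    rw [h, Subgroup.comap_top] at h1
    exact h1.symm
  rw [← hf]
  obtain ⟨H, hHd⟩ : ∃ H : Subgroup (Matrix.ProjectiveSpecialLinearGroup (Fin 2) F), H = Y.map f := ⟨_, rfl⟩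
  have hmf : ∀ y ∈ Y, f y ∈ H := fun y hy => by rw [hHd]; exact ⟨y, hy, rfl⟩
  have hcard' : Nat.card H * 2 = Nat.card Y := by rw [hHd]; exact hcard
  have hH' : H ≠ ⊤ := by rw [hHd]; exact hH
  rcases sub_psl p hp2 hodd H hH' with ⟨x, hx⟩ | h | h | h | ⟨h, h'⟩ | ⟨k, hk, h⟩
  · left
    obtain ⟨B, hB⟩ := exists_slHom_infty (K := F) x
    refine borel_sub Y B fun y hy => ?_
    have h1 : slHom F (B⁻¹ * y * B) ∞ = ∞ := by
      have h2 : slHom F y x = x := by
        have h3 := hx (f y) (hmf y hy)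
        rw [hf] at h3
        exact h3
      rw [map_mul, map_mul, map_inv, Equiv.Perm.mul_apply, Equiv.Perm.mul_apply, hB, h2, ← hB]
      exact (slHom F B).symm_apply_apply _
    exact (slHom_infty_iff _).1 h1
  · right; left; omega
  · right; right; left; omega
  · right; right; right; left; omega
  · right; right; right; right; left
    exact ⟨by omega, fun h60 => by rw [← hHd]; exact h' h60⟩
  · right; right; right; right; right
    refine ⟨k, hk, ?_⟩
    rw [← hcard', mul_comm]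
    exact Nat.mul_le_mul_left _ h

end Cfsg.Agent.H747.IFG
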