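import Cfsg.Agent.H747.IFG.Abs
import Cfsg.Agent.H625.IF.Unip

/-!
# S5719, `G₂(q)`, `q ≥ 5` odd, step C: `K1 ≤ A` or `K4 ≤ A`, a second involution: `K1 K4 ≤ A` (helper747)
-/

set_option autoImplicit false
set_option linter.unusedSectionVars false

namespace Cfsg.Agent.H747.IFG

open Cfsg.Agent.Cit.HexBase Cfsg.Agent.Lib.SL2Mat Cfsg.Agent.Cit.HexBase.HexGrp Subgroup Cfsg.Agent.H625.IFx
open Cfsg.Agent.ClassicalGeometry.PSL2Basic

variable {E : Type*} [Field E] [Fintype E] {L : Type*} [Group L] [Finite L] (c : HexGrp (RingEquiv.refl E) L)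

theorem card_fx : Nat.card ↥(fx (RingEquiv.refl E)) = Nat.card E :=
  Nat.card_congr (Equiv.subtypeUnivEquiv fun _ => rfl)

theorem ord2 {G : Type*} [Group G] {t : G} : orderOf t = 2 ↔ t * t = 1 ∧ t ≠ 1 := by
  constructor
  · intro h
    refine ⟨by rw [← pow_two, ← h, pow_orderOf_eq_one], ?_⟩
    rintro rfl
    rw [orderOf_one] at h
    omega
  · rintro ⟨h, h1⟩
    exact orderOf_eq_prime (by rw [pow_two, h]) h1

/-- `K1 → C(z)` -/
def r1 : SL2 E →* ↥(centralizer ({c.z} : Set L)) :=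
  c.pb.codRestrict _ fun x => mem_centralizer_singleton_iff.2 (pb_comm_z c x)

/-- `K4 → C(z)` -/
def r4 : SL2 ↥(fx (RingEquiv.refl E)) →* ↥(centralizer ({c.z} : Set L)) :=
  c.p4.codRestrict _ fun x => mem_centralizer_singleton_iff.2 (p4_comm_z c x)

/-- `z` in `C(z)` -/
def zz : ↥(centralizer ({c.z} : Set L)) := ⟨c.z, mem_centralizer_singleton_iff.2 rfl⟩

theorem r1_val (x : SL2 E) : ((r1 c x : ↥(centralizer ({c.z} : Set L))) : L) = c.pb x := rfl
theorem r4_val (x : SL2 ↥(fx (RingEquiv.refl E))) : ((r4 c x : ↥(centralizer ({c.z} : Set L))) : L) = c.p4 x := rfl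

theorem comm_z (g : ↥(centralizer ({c.z} : Set L))) : (g : L) * c.z = c.z * g := mem_centralizer_singleton_iff.1 g.2

theorem inv_data {s : ↥(centralizer ({c.z} : Set L))} (o : orderOf s = 2) (n : s ≠ zz c) :
    (s : L) * s = 1 ∧ (s : L) ≠ 1 ∧ (s : L) ≠ c.z := by
  obtain ⟨h1, h3⟩ := ord2.1 o
  exact ⟨congrArg Subtype.val h1, fun h => h3 (Subtype.ext h), fun h => n (Subtype.ext h)⟩

theorem card_cent_p4 (s : L) :
    Nat.card (centralizer ({s} : Set L) ⊓ c.K4 : Subgroup L) =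
      Nat.card {x : SL2 ↥(fx (RingEquiv.refl E)) // s * c.p4 x = c.p4 x * s} := by
  symm
  refine Nat.card_congr (Equiv.ofBijective (fun x => ⟨c.p4 x.1, mem_inf.2 ⟨?_, x.1, rfl⟩⟩) ⟨?_, ?_⟩)
  · rw [mem_centralizer_singleton_iff]
    exact x.2.symm
  · intro x y h
    exact Subtype.ext (c.p4_inj (congrArg Subtype.val h))
  · rintro ⟨y, hy⟩
    obtain ⟨hy1, x, rfl⟩ := mem_inf.1 hy
    exact ⟨⟨x, (mem_centralizer_singleton_iff.1 hy1).symm⟩, rfl⟩

theorem card_cc (s : ↥(centralizer ({c.z} : Set L))) : Nat.card (centralizer ({s} : Set _)) ≤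
    Nat.card (centralizer ({(s : L)} : Set L) ⊓ centralizer ({c.z} : Set L) : Subgroup L) := by
  refine Nat.card_le_card_of_injective (fun g => ⟨(g.1 : L), mem_inf.2 ⟨?_, g.1.2⟩⟩) ?_
  · exact mem_centralizer_singleton_iff.2 (congrArg Subtype.val (mem_centralizer_singleton_iff.1 g.2))
  · intro g g' h
    exact Subtype.ext (Subtype.ext (Subtype.mk.inj h))

/-- all the numbers of an involution `s ≠ z` of `C(z)` -/
theorem numbers (h2 : (2 : E) ≠ 0) {s : ↥(centralizer ({c.z} : Set L))} (o : orderOf s = 2) (n : s ≠ zz c) :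
    ∃ e : ℤ, (e = 1 ∨ e = -1) ∧
      (Nat.card {x : SL2 E // r1 c x * s = s * r1 c x} : ℤ) = Nat.card E - e ∧
      (Nat.card {x : SL2 ↥(fx (RingEquiv.refl E)) // r4 c x * s = s * r4 c x} : ℤ) = Nat.card E - e ∧
      (Nat.card (centralizer ({s} : Set _)) : ℤ) ≤ 2 * ((Nat.card E : ℤ) - e) ^ 2 := by
  obtain ⟨a1, a2, a3⟩ := inv_data c o n
  obtain ⟨e, he, k1, k4, hi⟩ := cent_inv c h2 (comm_z c s) a1 a2 a3
  refine ⟨e, he, ?_, ?_, ?_⟩
  · rw [← k1, card_cent_pb c _ h2]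
    congr 1
    exact Nat.card_congr (Equiv.subtypeEquivRight fun x =>
      ⟨fun h => (congrArg Subtype.val h).symm, fun h => Subtype.ext h.symm⟩)
  · rw [← card_fx (E := E), ← k4, card_cent_p4 c]
    congr 1
    exact Nat.card_congr (Equiv.subtypeEquivRight fun x =>
      ⟨fun h => (congrArg Subtype.val h).symm, fun h => Subtype.ext h.symm⟩)
  · have h3 := cent_cent_le c h2 he hi
    have h4 : (Nat.card (centralizer ({s} : Set _)) : ℤ) ≤
      Nat.card (centralizer ({(s : L)} : Set L) ⊓ centralizer ({c.z} : Set L) : Subgroup L) := by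
      exact_mod_cast card_cc c s
    rw [card_fx] at h3
    rw [pow_two]
    exact h4.trans h3

theorem nrm1 (h2 : (2 : E) ≠ 0) (g : ↥(centralizer ({c.z} : Set L))) (x : SL2 E) :
    ∃ x', g * r1 c x * g⁻¹ = r1 c x' := by
  obtain ⟨x', h⟩ := c.CZ_pb h2 (comm_z c g) x
  exact ⟨x', Subtype.ext h⟩

theorem nrm4 (h2 : (2 : E) ≠ 0) (g : ↥(centralizer ({c.z} : Set L))) (x : SL2 ↥(fx (RingEquiv.refl E))) :
    ∃ x', g * r4 c x * g⁻¹ = r4 c x' := by
  obtain ⟨x', h⟩ := c.CZ_p4 h2 (comm_z c g) x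
  exact ⟨x', Subtype.ext h⟩

theorem two (h2 : (2 : E) ≠ 0) {m : ℕ} (hm : Nat.card E = m + 1) :
    ∃ s₁ s₂ : ↥(centralizer ({c.z} : Set L)), orderOf s₁ = 2 ∧ orderOf s₂ = 2 ∧ s₁ ≠ zz c ∧ s₂ ≠ zz c ∧
    ¬ IsConj s₁ s₂ ∧ Nat.card (centralizer ({s₁} : Set _)) ≤ 2 * m ^ 2 ∧
    Nat.card (centralizer ({s₂} : Set _)) ≤ 2 * (m + 2) ^ 2 := by
  obtain ⟨s1, s2, ⟨a1, a2, a3, a4⟩, ⟨b1, b2, b3, b4⟩, k1, k2⟩ := two_types c h2
  obtain ⟨t1, ht1⟩ : ∃ t1 : ↥(centralizer ({c.z} : Set L)), (t1 : L) = s1 :=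
    ⟨⟨s1, mem_centralizer_singleton_iff.2 a4⟩, rfl⟩
  obtain ⟨t2, ht2⟩ : ∃ t2 : ↥(centralizer ({c.z} : Set L)), (t2 : L) = s2 :=
    ⟨⟨s2, mem_centralizer_singleton_iff.2 b4⟩, rfl⟩
  have o1 : orderOf t1 = 2 := ord2.2 ⟨Subtype.ext (by rw [coe_mul, ht1, a1]; rfl), fun h => a2 (by rw [← ht1, h]; rfl)⟩
  have o2 : orderOf t2 = 2 := ord2.2 ⟨Subtype.ext (by rw [coe_mul, ht2, b1]; rfl), fun h => b2 (by rw [← ht2, h]; rfl)⟩
  have n1 : t1 ≠ zz c := fun h => a3 (by rw [← ht1, h]; rfl)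
  have n2 : t2 ≠ zz c := fun h => b3 (by rw [← ht2, h]; rfl)
  have j1 : Nat.card {x : SL2 E // r1 c x * t1 = t1 * r1 c x} = Nat.card E - 1 := by
    rw [← k1]
    refine Nat.card_congr (Equiv.subtypeEquivRight fun x => ?_)
    rw [← ht1]
    exact ⟨fun h => (congrArg Subtype.val h).symm, fun h => Subtype.ext h.symm⟩
  have j2 : Nat.card {x : SL2 E // r1 c x * t2 = t2 * r1 c x} = Nat.card E + 1 := by
    rw [← k2]
    refine Nat.card_congr (Equiv.subtypeEquivRight fun x => ?_)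
    rw [← ht2]
    exact ⟨fun h => (congrArg Subtype.val h).symm, fun h => Subtype.ext h.symm⟩
  refine ⟨t1, t2, o1, o2, n1, n2, ?_, ?_, ?_⟩
  · intro h
    obtain ⟨g, hg⟩ := isConj_iff.1 h
    have hle : Nat.card {x : SL2 E // r1 c x * t2 = t2 * r1 c x} ≤ Nat.card {x : SL2 E // r1 c x * t1 = t1 * r1 c x} := by
      have hx : ∀ x : SL2 E, ∃ x', g⁻¹ * r1 c x * g⁻¹⁻¹ = r1 c x' := fun x => nrm1 c h2 g⁻¹ x
      choose f hf using hx
      refine Nat.card_le_card_of_injective (fun x => ⟨f x.1, ?_⟩) ?_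
      · rw [← hf, inv_inv]
        have h5 := x.2
        have h6 : t1 = g⁻¹ * t2 * g := by rw [← hg]; group
        calc g⁻¹ * r1 c x.1 * g * t1 = g⁻¹ * (r1 c x.1 * t2) * g := by rw [h6]; group
          _ = g⁻¹ * (t2 * r1 c x.1) * g := by rw [h5]
          _ = t1 * (g⁻¹ * r1 c x.1 * g) := by rw [h6]; group
      · intro x y hxy
        have h5 : f x.1 = f y.1 := congrArg Subtype.val hxy
        have h6 : g⁻¹ * r1 c x.1 * g⁻¹⁻¹ = g⁻¹ * r1 c y.1 * g⁻¹⁻¹ := by rw [hf, hf, h5]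
        have h7 : r1 c x.1 = r1 c y.1 := mul_left_cancel (mul_right_cancel h6)
        exact Subtype.ext (c.pb_inj h2 (congrArg Subtype.val h7))
    rw [j1, j2] at hle
    omega
  · obtain ⟨e, he, k, -, hc⟩ := numbers c h2 o1 n1
    rw [j1] at k
    have : e = 1 := by rw [hm] at k; push_cast at k; omega
    rw [this, hm] at hc
    push_cast at hc
    have h5 : ((m : ℤ) + 1 - 1) = m := by ring
    rw [h5] at hc
    exact_mod_cast hc
  · obtain ⟨e, he, k, -, hc⟩ := numbers c h2 o2 n2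
    rw [j2] at k
    have : e = -1 := by rw [hm] at k; push_cast at k; omega
    rw [this, hm] at hc
    push_cast at hc
    have h5 : ((m : ℤ) + 1 - -1) = m + 2 := by ring
    rw [h5] at hc
    exact_mod_cast hc

theorem center_cases {K : Type*} [Field K] {x : SL2 K} (hx : x ∈ Subgroup.center (SL2 K)) :
    x = 1 ∨ x = dg (-1) (neg_ne_zero.2 one_ne_zero) :=
  central_cases fun y => (Subgroup.mem_center_iff.1 hx y).symm

theorem le_num {n m : ℕ} {e : ℤ} (he : e = 1 ∨ e = -1) (h : (n : ℤ) = (m + 1 : ℕ) - e) : n ≤ m + 2 := by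
  push_cast at h
  rcases he with rfl | rfl <;> omega

theorem le_num2 {n m : ℕ} {e : ℤ} (he : e = 1 ∨ e = -1) (h : (n : ℤ) ≤ 2 * (((m + 1 : ℕ) : ℤ) - e) ^ 2) :
    n ≤ 2 * (m + 2) ^ 2 := by
  have h1 : (n : ℤ) ≤ 2 * ((m : ℤ) + 2) ^ 2 := by
    refine h.trans ?_
    push_cast
    have hm0 : (0 : ℤ) ≤ m := Int.natCast_nonneg m
    rcases he with rfl | rfl <;> nlinarith
  exact_mod_cast h1

theorem frm14 [Fintype ↥(fx (RingEquiv.refl E))] (h2 : (2 : E) ≠ 0) {m : ℕ} (hm : Nat.card E = m + 1) :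
    Frm m (r1 c) (r4 c) (zz c) := by
  have hodd : Odd (Fintype.card E) := odd_of_two h2
  have hE : Fintype.card E = m + 1 := by rw [← Nat.card_eq_fintype_card, hm]
  have hfx : Nat.card ↥(fx (RingEquiv.refl E)) = m + 1 := by rw [card_fx, hm]
  exact
  { cF := hE
    cF' := by rw [← Nat.card_eq_fintype_card, hfx]
    ev := by rw [hE] at hodd; obtain ⟨k, hk⟩ := hodd; omega
    inj := fun x y h => c.pb_inj h2 (congrArg Subtype.val h)
    inj' := fun x y h => c.p4_inj (congrArg Subtype.val h)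
    comm := fun x y => Subtype.ext (c.comm_pb_p4 x y)
    hz := fun g => Subtype.ext (comm_z c g)
    oz := ord2.2 ⟨Subtype.ext c.z_sq, fun h => c.z_ne h2 (congrArg Subtype.val h)⟩
    cap := fun x y h => by
      rcases c.eq_of_pb_eq_p4 (congrArg Subtype.val h) with h1 | h1
      · exact Or.inl (Subtype.ext h1)
      · exact Or.inr (Subtype.ext h1)
    zK := ⟨_, Subtype.ext rfl⟩
    zK' := ⟨dg (-1) (neg_ne_zero.2 one_ne_zero), Subtype.ext c.z_eq_p4.symm⟩
    cen := fun x hx => by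
      rcases center_cases hx with rfl | rfl
      · exact Or.inl (map_one _)
      · exact Or.inr (Subtype.ext c.z_eq_p4.symm)
    card := by
      have := Fintype.ofFinite ↥(fx (RingEquiv.refl E))
      rw [card_CZ c h2, card_SL2, card_SL2, ← Nat.card_eq_fintype_card, ← Nat.card_eq_fintype_card, hm, hfx, qq]
      ring
    nrm := nrm1 c h2
    nrm' := nrm4 c h2
    cK := fun s o n => by
      obtain ⟨e, he, k, -, -⟩ := numbers c h2 o n
      rw [hm] at k
      exact le_num he k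
    cU := fun s o n u hu h => by
      obtain ⟨a1, a2, a3⟩ := inv_data c o n
      exact cent_inv_unip_p4 c h2 (comm_z c s) a1 a2 a3 (by rw [hfx, hu]) (congrArg Subtype.val h).symm
    cU2 := fun u hu1 hu g hg => by
      have h1 := cent_unip_p4 c h2 (comm_z c g) hu1 (by rw [hfx, hu]) (congrArg Subtype.val hg)
      rw [← range_eq_sup, mem_range] at h1
      obtain ⟨x, y, h⟩ := h1
      exact ⟨x, y, Subtype.ext h.symm⟩
    cC := fun s o n => by
      obtain ⟨e, he, -, -, hc⟩ := numbers c h2 o n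
      rw [hm] at hc
      exact le_num2 he hc
    two := two c h2 hm }

theorem frm41 [Fintype ↥(fx (RingEquiv.refl E))] (h2 : (2 : E) ≠ 0) {m : ℕ} (hm : Nat.card E = m + 1) :
    Frm m (r4 c) (r1 c) (zz c) := by
  have h := frm14 c h2 hm
  have hfx : Nat.card ↥(fx (RingEquiv.refl E)) = m + 1 := by rw [card_fx, hm]
  exact
  { cF := h.cF'
    cF' := h.cF
    ev := h.ev
    inj := h.inj'
    inj' := h.inj
    comm := fun x y => (h.comm y x).symm
    hz := h.hz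
    oz := h.oz
    cap := fun x y he => by
      have h1 := h.cap y x he.symm
      rwa [he]
    zK := h.zK'
    zK' := h.zK
    cen := fun x hx => by
      rcases center_cases hx with rfl | rfl
      · exact Or.inl (map_one _)
      · exact Or.inr (Subtype.ext rfl)
    card := h.card
    nrm := h.nrm'
    nrm' := h.nrm
    cK := fun s o n => by
      obtain ⟨e, he, -, k, -⟩ := numbers c h2 o n
      rw [hm] at k
      exact le_num he k
    cU := fun s o n u hu hg => by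
      obtain ⟨a1, a2, a3⟩ := inv_data c o n
      exact cent_inv_unip_pb c h2 (comm_z c s) a1 a2 a3 (by rw [hm, hu]) (congrArg Subtype.val hg).symm
    cU2 := fun u hu1 hu g hg => by
      have h1 := cent_unip_pb c h2 (comm_z c g) hu1 (by rw [hm, hu]) (congrArg Subtype.val hg)
      rw [← range_eq_sup, mem_range] at h1
      obtain ⟨x, y, h3⟩ := h1
      exact ⟨y, x, Subtype.ext (h3.symm.trans (c.comm_pb_p4 x y))⟩
    cC := h.cC
    two := h.two }

/-- **Step C.** -/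
theorem stepC (h2 : (2 : E) ≠ 0) (h5 : 5 ≤ Fintype.card E) (A : Subgroup L) (_hz : c.z ∈ A)
    (hs : ∃ s ∈ A, s * c.z = c.z * s ∧ orderOf s = 2 ∧ s ≠ c.z) (hK : c.K1 ≤ A ∨ c.K4 ≤ A)
    (hB : A.relIndex (centralizer ({c.z} : Set L)) ^ 5 * {t : L | t ∈ A ∧ orderOf t = 2}.ncard <
      Fintype.card E ^ 4 * (Fintype.card E ^ 4 + Fintype.card E ^ 2 + 1)) : c.K1 ≤ A ∧ c.K4 ≤ A := by
  have := Fintype.ofFinite ↥(fx (RingEquiv.refl E))
  obtain ⟨m, hm⟩ : ∃ m, Nat.card E = m + 1 := ⟨Nat.card E - 1, by rw [Nat.card_eq_fintype_card]; omega⟩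
  have hE : Fintype.card E = m + 1 := by rw [← Nat.card_eq_fintype_card, hm]
  obtain ⟨s, hsA, hsz, os, ns⟩ := hs
  obtain ⟨t, ht⟩ : ∃ t : ↥(centralizer ({c.z} : Set L)), (t : L) = s :=
    ⟨⟨s, mem_centralizer_singleton_iff.2 hsz⟩, rfl⟩
  obtain ⟨A', hA'⟩ : ∃ A', A' = A.subgroupOf (centralizer ({c.z} : Set L)) := ⟨_, rfl⟩
  have hmem : ∀ g : ↥(centralizer ({c.z} : Set L)), g ∈ A' ↔ (g : L) ∈ A := fun g => by rw [hA']; rfl
  have htA : t ∈ A' := by rw [hmem, ht]; exact hsA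
  have ot : orderOf t = 2 := by rw [← Subgroup.orderOf_coe, ht]; exact os
  have nt : t ≠ zz c := fun h => ns (by rw [← ht, h]; rfl)
  have hcount : {g : ↥(centralizer ({c.z} : Set L)) | g ∈ A' ∧ orderOf g = 2}.ncard ≤
      {t : L | t ∈ A ∧ orderOf t = 2}.ncard := by
    rw [← Set.ncard_image_of_injective _ (Subtype.val_injective)]
    refine Set.ncard_le_ncard ?_ (Set.toFinite _)
    rintro _ ⟨g, ⟨hg, og⟩, rfl⟩
    exact ⟨(hmem g).1 hg, by rw [Subgroup.orderOf_coe]; exact og⟩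
  have hH : A'.index ^ 5 * {g : ↥(centralizer ({c.z} : Set L)) | g ∈ A' ∧ orderOf g = 2}.ncard <
      (m + 1) ^ 4 * ((m + 1) ^ 4 + (m + 1) ^ 2 + 1) := by
    rw [hE] at hB
    refine lt_of_le_of_lt ?_ hB
    rw [hA']
    exact Nat.mul_le_mul_left _ (by rw [← hA']; exact hcount)
  rcases hK with hK | hK
  · refine ⟨hK, ?_⟩
    have h1 := (frm14 c h2 hm).main (by omega) (A := A') (by
      rintro _ ⟨x, rfl⟩
      rw [hmem]
      exact hK ⟨x, rfl⟩) htA ot nt hH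
    rintro _ ⟨y, rfl⟩
    exact (hmem (r4 c y)).1 (h1 ⟨y, rfl⟩)
  · refine ⟨?_, hK⟩
    have h1 := (frm41 c h2 hm).main (by omega) (A := A') (by
      rintro _ ⟨x, rfl⟩
      rw [hmem]
      exact hK ⟨x, rfl⟩) htA ot nt hH
    rintro _ ⟨y, rfl⟩
    exact (hmem (r1 c y)).1 (h1 ⟨y, rfl⟩)

end Cfsg.Agent.H747.IFG
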